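import Cfsg.Agent.H909.Mon.Fin
import Cfsg.Agent.MonsterP.Equiv

/-!
# S2454, row of the Monster (helper909)

`pw_m` : every element of the Monster is a product of 60 `p`-elements, `p` any prime divisor of the order.
No fact on centralizers of elements of order 41, 59, 71 and no classification is used: an involution is a product of
four `p`-elements (33 kernel checks), and an element of order 46 with centralizer of order at most 184 is a product of
20 `p`-elements.
-/

set_option autoImplicit false

namespace Cfsg.Agent.H909.Pw

open Cfsg.Agent.H514.DP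

theorem pw_m60 {S : Type*} [Group S] (h : Cfsg.Spor.IsoM S) {p : ℕ} (hp : p.Prime) (hd : p ∣ Nat.card S) :
    PW p 60 S := by
  obtain ⟨e⟩ := h
  obtain ⟨f⟩ := Cfsg.Agent.MonsterP.Equiv.equiv
  have hd' : p ∣ Nat.card Cfsg.Agent.H909.Mon.MG := by
    rw [Nat.card_congr (f.symm.trans e.symm).symm.toEquiv.symm]
    exact hd
  exact (Cfsg.Agent.H909.Mon.pw_model hp hd').congr (f.symm.trans e.symm)

/-- **The row of the Monster.** -/
theorem pw_m {S : Type*} [Group S] [Finite S] [IsSimpleGroup S] (h : Cfsg.Spor.IsoM S) {p : ℕ} (hp : p.Prime)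
    (hd : p ∣ Nat.card S) : PW p 70 S := (pw_m60 h hp hd).mono (by norm_num)

end Cfsg.Agent.H909.Pw
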